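/-
S2930 (helper38's Pmin3 project), packages [RS3] and [RS].  (helper1)
-/
import Mathlib
import Cfsg.Agent.Lib.Helper38.Pmin3.Defs

set_option autoImplicit false

namespace Cfsg.Agent.Lib.Helper1.Pmin3

open Equiv Cfsg.Agent.Lib.Helper38.Pmin3

/-- The 3-cycle `swap a b * swap a c` sends `a ↦ c ↦ b ↦ a`. -/
theorem threeCycle_apply {α : Type*} [DecidableEq α] {a b c : α} (hab : a ≠ b) (hac : a ≠ c)
    (hbc : b ≠ c) (x : α) :
    (swap a b * swap a c) x = if x = a then c else if x = c then b else if x = b then a else x := by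
  rw [Perm.mul_apply]
  by_cases h1 : x = a
  · subst h1
    rw [swap_apply_left, if_pos rfl, swap_apply_of_ne_of_ne (Ne.symm hac) (Ne.symm hbc)]
  · rw [if_neg h1]
    by_cases h2 : x = c
    · subst h2
      rw [swap_apply_right, if_pos rfl, swap_apply_left]
    · rw [if_neg h2, swap_apply_of_ne_of_ne h1 h2]
      by_cases h3 : x = b
      · subst h3
        rw [swap_apply_right, if_pos rfl]
      · rw [if_neg h3, swap_apply_of_ne_of_ne h1 h3]

/-- Package [RS3]. -/
theorem lemRS3 : LemRS3 := by
  intro n ρ hρ a b c hab hac hbc hρab hρac g hg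
  have key : ∀ x : Fin n, ρ ((g : Perm (Fin n)) x) x := by
    intro x
    rw [hg, threeCycle_apply hab hac hbc]
    split_ifs with h1 h2 h3
    · subst h1; exact hρ.symm hρac
    · subst h2; exact hρ.trans (hρ.symm hρab) hρac
    · subst h3; exact hρab
    · exact hρ.refl x
  rw [mem_relStab]
  intro x y
  constructor
  · intro h
    exact hρ.trans (hρ.symm (key x)) (hρ.trans h (key y))
  · intro h
    exact hρ.trans (key x) (hρ.trans h (hρ.symm (key y)))

/-- Package [RS]. -/
theorem lemRS : LemRS := by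
  intro n S M hC ρ hρ hS hxy hxw
  apply hC.le
  · intro g hg
    rw [mem_relStab]
    exact hS g hg
  · obtain ⟨x, y, hne, hρxy⟩ := hxy
    obtain ⟨x', w', hx'w'⟩ := hxw
    have hw : ∃ w, ¬ ρ x w := by
      by_cases h : ρ x x'
      · exact ⟨w', fun h' => hx'w' (hρ.trans (hρ.symm h) h')⟩
      · exact ⟨x', h⟩
    obtain ⟨w, hw⟩ := hw
    have hxw : x ≠ w := fun h => hw (h ▸ hρ.refl x)
    have hyw : y ≠ w := fun h => hw (h ▸ hρxy)
    intro htop
    have h3 : (swap x y * swap x w) ∈ alternatingGroup (Fin n) :=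
      (Perm.isThreeCycle_swap_mul_swap_same hne hxw hyw).mem_alternatingGroup
    have hmem : (⟨swap x y * swap x w, h3⟩ : ↥(alternatingGroup (Fin n))) ∈ relStab n ρ := by
      rw [htop]; exact Subgroup.mem_top _
    rw [mem_relStab] at hmem
    have e := (hmem x y).mpr hρxy
    simp only [] at e
    rw [threeCycle_apply hne hxw hyw, threeCycle_apply hne hxw hyw, if_pos rfl,
      if_neg (Ne.symm hne), if_neg hyw, if_pos rfl] at e
    exact hw (hρ.symm e)

end Cfsg.Agent.Lib.Helper1.Pmin3
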