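/-
S2930 (helper38's Pmin3 project), package [R3]: at most two orbits.  (helper1)
-/
import Mathlib
import Cfsg.Agent.Lib.Helper38.Pmin3.Defs
import Cfsg.Agent.Lib.Helper1.Pmin3.RS3

set_option autoImplicit false

namespace Cfsg.Agent.Lib.Helper1.Pmin3

open Equiv Cfsg.Agent.Lib.Helper38.Pmin3
open scoped Pointwise

theorem sameOrb_refl {n : ℕ} (S : Subgroup ↥(alternatingGroup (Fin n))) (x : Fin n) :
    SameOrb S x x := ⟨1, S.one_mem, by simp⟩

theorem sameOrb_symm {n : ℕ} {S : Subgroup ↥(alternatingGroup (Fin n))} {x y : Fin n}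
    (h : SameOrb S x y) : SameOrb S y x := by
  obtain ⟨g, hg, rfl⟩ := h
  exact ⟨g⁻¹, S.inv_mem hg, by simp⟩

theorem sameOrb_trans {n : ℕ} {S : Subgroup ↥(alternatingGroup (Fin n))} {x y z : Fin n}
    (h1 : SameOrb S x y) (h2 : SameOrb S y z) : SameOrb S x z := by
  obtain ⟨g, hg, rfl⟩ := h1
  obtain ⟨k, hk, rfl⟩ := h2
  exact ⟨k * g, S.mul_mem hk hg, by simp [Perm.mul_apply]⟩

/-- `S` stabilizes each of its orbits. -/
theorem le_stabilizer_orb {n : ℕ} (S : Subgroup ↥(alternatingGroup (Fin n))) (x : Fin n) :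
    S ≤ MulAction.stabilizer ↥(alternatingGroup (Fin n)) {w : Fin n | SameOrb S x w} := by
  intro g hg
  rw [MulAction.mem_stabilizer_set]
  intro b
  have hb : SameOrb S b (g • b) := ⟨g, hg, rfl⟩
  show SameOrb S x (g • b) ↔ SameOrb S x b
  constructor
  · intro h
    exact sameOrb_trans h (sameOrb_symm hb)
  · intro h
    exact sameOrb_trans h hb

/-- The core of [R3]: two `S`-invariant sets `A`, `B` whose stabilizers are maximal, and a
3-cycle stabilizing `A` but not `B`. -/
theorem r3_aux {n : ℕ} {S M : Subgroup ↥(alternatingGroup (Fin n))} (hC : Ctx n S M)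
    (A B : Set (Fin n))
    (hA : S ≤ MulAction.stabilizer ↥(alternatingGroup (Fin n)) A)
    (hB : S ≤ MulAction.stabilizer ↥(alternatingGroup (Fin n)) B)
    (hA0 : A.Nonempty) (hA1 : Aᶜ.Nonempty) (hAc : n ≠ 2 * A.ncard)
    (hB0 : B.Nonempty) (hB1 : Bᶜ.Nonempty) (hBc : n ≠ 2 * B.ncard)
    (a b c : Fin n) (hab : a ≠ b) (hac : a ≠ c) (hbc : b ≠ c) (haA : a ∉ A) (hbA : b ∉ A)
    (hcA : c ∉ A) (haB : a ∈ B) (hbB : b ∉ B) : False := by
  have cA : IsCoatom (MulAction.stabilizer ↥(alternatingGroup (Fin n)) A) :=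
    alternatingGroup.isCoatom_stabilizer hA0 hA1 (by rw [Nat.card_fin]; exact hAc)
  have cB : IsCoatom (MulAction.stabilizer ↥(alternatingGroup (Fin n)) B) :=
    alternatingGroup.isCoatom_stabilizer hB0 hB1 (by rw [Nat.card_fin]; exact hBc)
  have eA : M = MulAction.stabilizer ↥(alternatingGroup (Fin n)) A :=
    (cA.le_iff.mp (hC.le _ hA cA.1)).resolve_left hC.ne
  have eB : M = MulAction.stabilizer ↥(alternatingGroup (Fin n)) B :=
    (cB.le_iff.mp (hC.le _ hB cB.1)).resolve_left hC.ne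
  have h3 : (swap a c * swap a b) ∈ alternatingGroup (Fin n) :=
    (Perm.isThreeCycle_swap_mul_swap_same hac hab (Ne.symm hbc)).mem_alternatingGroup
  have happ := threeCycle_apply hac hab (Ne.symm hbc)
  have hgA : (⟨swap a c * swap a b, h3⟩ : ↥(alternatingGroup (Fin n))) ∈
      MulAction.stabilizer ↥(alternatingGroup (Fin n)) A := by
    rw [MulAction.mem_stabilizer_set]
    intro w
    show (swap a c * swap a b) w ∈ A ↔ w ∈ A
    rw [happ]
    split_ifs with h1 h2 h3
    · subst h1; exact ⟨fun h => absurd h hbA, fun h => absurd h haA⟩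
    · subst h2; exact ⟨fun h => absurd h hcA, fun h => absurd h hbA⟩
    · subst h3; exact ⟨fun h => absurd h haA, fun h => absurd h hcA⟩
    · exact Iff.rfl
  rw [← eA, eB, MulAction.mem_stabilizer_set] at hgA
  have e := (hgA a).mpr haB
  have e2 : (swap a c * swap a b) a ∈ B := e
  rw [happ, if_pos rfl] at e2
  exact hbB e2

/-- The ordered case of [R3]. -/
theorem r3_ordered {n : ℕ} {S M : Subgroup ↥(alternatingGroup (Fin n))} (hn : 5 ≤ n)
    (hC : Ctx n S M) (x y z : Fin n) (hxy : ¬ SameOrb S x y) (hxz : ¬ SameOrb S x z)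
    (hyz : ¬ SameOrb S y z)
    (h1 : Set.ncard {w | SameOrb S x w} ≤ Set.ncard {w | SameOrb S y w})
    (h2 : Set.ncard {w | SameOrb S y w} ≤ Set.ncard {w | SameOrb S z w}) : False := by
  have dxy : Disjoint {w | SameOrb S x w} {w | SameOrb S y w} := by
    rw [Set.disjoint_left]
    intro w hw hw'
    exact hxy (sameOrb_trans hw (sameOrb_symm hw'))
  have dxyz : Disjoint ({w | SameOrb S x w} ∪ {w | SameOrb S y w}) {w | SameOrb S z w} := by
    rw [Set.disjoint_left]
    rintro w (hw | hw) hw'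
    · exact hxz (sameOrb_trans hw (sameOrb_symm hw'))
    · exact hyz (sameOrb_trans hw (sameOrb_symm hw'))
  have hsum : Set.ncard {w | SameOrb S x w} + Set.ncard {w | SameOrb S y w} +
      Set.ncard {w | SameOrb S z w} ≤ n := by
    rw [← Set.ncard_union_eq dxy, ← Set.ncard_union_eq dxyz]
    calc Set.ncard ({w | SameOrb S x w} ∪ {w | SameOrb S y w} ∪ {w | SameOrb S z w})
        ≤ Set.ncard (Set.univ : Set (Fin n)) := Set.ncard_le_ncard (Set.subset_univ _)
      _ = n := by rw [Set.ncard_univ, Nat.card_fin]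
  have px : 0 < Set.ncard {w | SameOrb S x w} := (Set.ncard_pos).mpr ⟨x, sameOrb_refl S x⟩
  have py : 0 < Set.ncard {w | SameOrb S y w} := (Set.ncard_pos).mpr ⟨y, sameOrb_refl S y⟩
  have pz : 0 < Set.ncard {w | SameOrb S z w} := (Set.ncard_pos).mpr ⟨z, sameOrb_refl S z⟩
  have hyne : y ≠ z := fun h => hyz (h ▸ sameOrb_refl S y)
  -- a third point outside the orbit of `x`
  have hc : ∃ c : Fin n, ¬ SameOrb S x c ∧ y ≠ c ∧ z ≠ c := by
    by_contra hcon
    push Not at hcon
    have hsub : ({w | SameOrb S x w}ᶜ : Set (Fin n)) ⊆ {y, z} := by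
      intro c hc
      by_cases e : y = c
      · exact Or.inl e.symm
      · exact Or.inr (hcon c hc e).symm
    have hle : Set.ncard ({w | SameOrb S x w}ᶜ : Set (Fin n)) ≤ 2 := by
      calc Set.ncard ({w | SameOrb S x w}ᶜ : Set (Fin n)) ≤ Set.ncard ({y, z} : Set (Fin n)) :=
            Set.ncard_le_ncard hsub
        _ = 2 := Set.ncard_pair hyne
    have hadd := Set.ncard_add_ncard_compl {w | SameOrb S x w}
    rw [Nat.card_fin] at hadd
    omega
  obtain ⟨c, hcx, hyc, hzc⟩ := hc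
  exact r3_aux hC {w | SameOrb S x w} {w | SameOrb S y w} (le_stabilizer_orb S x)
    (le_stabilizer_orb S y) ⟨x, sameOrb_refl S x⟩ ⟨y, hxy⟩ (by omega) ⟨y, sameOrb_refl S y⟩
    ⟨x, fun h => hxy (sameOrb_symm h)⟩ (by omega) y z c hyne hyc hzc hxy hxz hcx
    (sameOrb_refl S y) hyz

/-- Package [R3]. -/
theorem lemR3 : LemR3 := by
  intro n S M hn hC x y z hxy hxz hyz
  have hyx : ¬ SameOrb S y x := fun h => hxy (sameOrb_symm h)
  have hzx : ¬ SameOrb S z x := fun h => hxz (sameOrb_symm h)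
  have hzy : ¬ SameOrb S z y := fun h => hyz (sameOrb_symm h)
  rcases le_total (Set.ncard {w | SameOrb S x w}) (Set.ncard {w | SameOrb S y w}) with a | a <;>
  rcases le_total (Set.ncard {w | SameOrb S y w}) (Set.ncard {w | SameOrb S z w}) with b | b <;>
  rcases le_total (Set.ncard {w | SameOrb S x w}) (Set.ncard {w | SameOrb S z w}) with c | c
  · exact r3_ordered hn hC x y z hxy hxz hyz a b
  · exact r3_ordered hn hC x y z hxy hxz hyz a b
  · exact r3_ordered hn hC x z y hxz hxy hzy c b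
  · exact r3_ordered hn hC z x y hzx hzy hxy c a
  · exact r3_ordered hn hC y x z hyx hyz hxz a c
  · exact r3_ordered hn hC y z x hyz hyx hzx b c
  · exact r3_ordered hn hC z y x hzy hzx hyx b a
  · exact r3_ordered hn hC z y x hzy hzx hyx b a

end Cfsg.Agent.Lib.Helper1.Pmin3
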