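/-
S2930 (helper38's Pmin3 project), package [SWAP].  (helper1)
-/
import Mathlib
import Cfsg.Agent.Lib.Helper38.Pmin3.Defs

set_option autoImplicit false

namespace Cfsg.Agent.Lib.Helper1.Pmin3

open Equiv Cfsg.Agent.Lib.Helper38.Pmin3

/-- Package [SWAP]. -/
theorem lemSwap : LemSwap := by
  intro n ρ hρ u₁ u₂ u₃ v₁ v₂ v₃ h12 h13 h23 k12 k13 k23 hD hD' hnot
  have hu : ∀ a, (a = u₁ ∨ a = u₂ ∨ a = u₃) → ∀ b, (b = v₁ ∨ b = v₂ ∨ b = v₃) → a ≠ b := by
    intro a ha b hb hab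
    have e1 : ρ u₁ a := (hD a).mpr ha
    have e2 : ρ v₁ b := (hD' b).mpr hb
    exact hnot (hρ.trans e1 (hab ▸ hρ.symm e2))
  have n11 : u₁ ≠ v₁ := hu _ (Or.inl rfl) _ (Or.inl rfl)
  have n12 : u₁ ≠ v₂ := hu _ (Or.inl rfl) _ (Or.inr (Or.inl rfl))
  have n13 : u₁ ≠ v₃ := hu _ (Or.inl rfl) _ (Or.inr (Or.inr rfl))
  have n21 : u₂ ≠ v₁ := hu _ (Or.inr (Or.inl rfl)) _ (Or.inl rfl)
  have n22 : u₂ ≠ v₂ := hu _ (Or.inr (Or.inl rfl)) _ (Or.inr (Or.inl rfl))
  have n23 : u₂ ≠ v₃ := hu _ (Or.inr (Or.inl rfl)) _ (Or.inr (Or.inr rfl))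
  have n31 : u₃ ≠ v₁ := hu _ (Or.inr (Or.inr rfl)) _ (Or.inl rfl)
  have n32 : u₃ ≠ v₂ := hu _ (Or.inr (Or.inr rfl)) _ (Or.inr (Or.inl rfl))
  have n33 : u₃ ≠ v₃ := hu _ (Or.inr (Or.inr rfl)) _ (Or.inr (Or.inr rfl))
  obtain ⟨h, hdef⟩ : ∃ h : Perm (Fin n), h = swap u₁ v₁ * swap u₂ v₂ * swap u₃ v₃ * swap u₁ u₂ :=
    ⟨_, rfl⟩
  have happ : ∀ x, h x = swap u₁ v₁ (swap u₂ v₂ (swap u₃ v₃ (swap u₁ u₂ x))) := by
    intro x; rw [hdef]; rfl
  have hmem : h ∈ alternatingGroup (Fin n) := by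
    rw [Perm.mem_alternatingGroup, hdef]
    simp [Perm.sign_mul, Perm.sign_swap n11, Perm.sign_swap n22, Perm.sign_swap n33,
      Perm.sign_swap h12]
  have a1 : h u₁ = v₂ := by
    rw [happ, swap_apply_left, swap_apply_of_ne_of_ne h23 n23, swap_apply_left,
      swap_apply_of_ne_of_ne n12.symm k12.symm]
  have a2 : h u₂ = v₁ := by
    rw [happ, swap_apply_right, swap_apply_of_ne_of_ne h13 n13, swap_apply_of_ne_of_ne h12 n12,
      swap_apply_left]
  have a3 : h u₃ = v₃ := by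
    rw [happ, swap_apply_of_ne_of_ne h13.symm h23.symm, swap_apply_left,
      swap_apply_of_ne_of_ne n23.symm k23.symm, swap_apply_of_ne_of_ne n13.symm k13.symm]
  have b1 : h v₁ = u₁ := by
    rw [happ, swap_apply_of_ne_of_ne n11.symm n21.symm, swap_apply_of_ne_of_ne n31.symm k13,
      swap_apply_of_ne_of_ne n21.symm k12, swap_apply_right]
  have b2 : h v₂ = u₂ := by
    rw [happ, swap_apply_of_ne_of_ne n12.symm n22.symm, swap_apply_of_ne_of_ne n32.symm k23,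
      swap_apply_right, swap_apply_of_ne_of_ne h12.symm n21]
  have b3 : h v₃ = u₃ := by
    rw [happ, swap_apply_of_ne_of_ne n13.symm n23.symm, swap_apply_right,
      swap_apply_of_ne_of_ne h23.symm n32, swap_apply_of_ne_of_ne h13.symm n31]
  have c0 : ∀ w : Fin n, w ≠ u₁ → w ≠ u₂ → w ≠ u₃ → w ≠ v₁ → w ≠ v₂ → w ≠ v₃ → h w = w := by
    intro w w1 w2 w3 w4 w5 w6
    rw [happ, swap_apply_of_ne_of_ne w1 w2, swap_apply_of_ne_of_ne w3 w6,
      swap_apply_of_ne_of_ne w2 w5, swap_apply_of_ne_of_ne w1 w4]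
  -- the three basic facts
  have f1 : ∀ x, ρ u₁ x → ρ v₁ (h x) := by
    intro x hx
    rcases (hD x).mp hx with rfl | rfl | rfl
    · rw [a1]; exact (hD' _).mpr (Or.inr (Or.inl rfl))
    · rw [a2]; exact (hD' _).mpr (Or.inl rfl)
    · rw [a3]; exact (hD' _).mpr (Or.inr (Or.inr rfl))
  have f2 : ∀ x, ρ v₁ x → ρ u₁ (h x) := by
    intro x hx
    rcases (hD' x).mp hx with rfl | rfl | rfl
    · rw [b1]; exact (hD _).mpr (Or.inl rfl)
    · rw [b2]; exact (hD _).mpr (Or.inr (Or.inl rfl))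
    · rw [b3]; exact (hD _).mpr (Or.inr (Or.inr rfl))
  have f3 : ∀ x, ¬ ρ u₁ x → ¬ ρ v₁ x → h x = x := by
    intro x hx hx'
    apply c0
    · rintro rfl; exact hx ((hD _).mpr (Or.inl rfl))
    · rintro rfl; exact hx ((hD _).mpr (Or.inr (Or.inl rfl)))
    · rintro rfl; exact hx ((hD _).mpr (Or.inr (Or.inr rfl)))
    · rintro rfl; exact hx' ((hD' _).mpr (Or.inl rfl))
    · rintro rfl; exact hx' ((hD' _).mpr (Or.inr (Or.inl rfl)))
    · rintro rfl; exact hx' ((hD' _).mpr (Or.inr (Or.inr rfl)))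
  have g1 : ∀ x, ρ v₁ (h x) → ρ u₁ x := by
    intro x hx
    by_cases e1 : ρ u₁ x
    · exact e1
    · by_cases e2 : ρ v₁ x
      · exact absurd (hρ.trans (f2 x e2) (hρ.symm hx)) hnot
      · rw [f3 x e1 e2] at hx
        exact absurd hx e2
  have g2 : ∀ x, ρ u₁ (h x) → ρ v₁ x := by
    intro x hx
    by_cases e2 : ρ v₁ x
    · exact e2
    · by_cases e1 : ρ u₁ x
      · exact absurd (hρ.trans hx (hρ.symm (f1 x e1))) hnot
      · rw [f3 x e1 e2] at hx
        exact absurd hx e1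
  refine ⟨⟨h, hmem⟩, ?_, a3, c0⟩
  rw [mem_relStab]
  intro x y
  show ρ (h x) (h y) ↔ ρ x y
  by_cases e1 : ρ u₁ x
  · have e1' := f1 x e1
    constructor
    · intro hh
      exact hρ.trans (hρ.symm e1) (g1 y (hρ.trans e1' hh))
    · intro hh
      exact hρ.trans (hρ.symm e1') (f1 y (hρ.trans e1 hh))
  · by_cases e2 : ρ v₁ x
    · have e2' := f2 x e2
      constructor
      · intro hh
        exact hρ.trans (hρ.symm e2) (g2 y (hρ.trans e2' hh))
      · intro hh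
        exact hρ.trans (hρ.symm e2') (f2 y (hρ.trans e2 hh))
    · rw [f3 x e1 e2]
      by_cases d1 : ρ u₁ y
      · constructor
        · intro hh
          exact absurd (hρ.trans (f1 y d1) (hρ.symm hh)) e2
        · intro hh
          exact absurd (hρ.trans d1 (hρ.symm hh)) e1
      · by_cases d2 : ρ v₁ y
        · constructor
          · intro hh
            exact absurd (hρ.trans (f2 y d2) (hρ.symm hh)) e1
          · intro hh
            exact absurd (hρ.trans d2 (hρ.symm hh)) e2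
        · rw [f3 y d1 d2]

end Cfsg.Agent.Lib.Helper1.Pmin3
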